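import Mathlib
import Cfsg.Agent.Lib.Lead.Dih
import Cfsg.Agent.Lib.Lead.Basic
import Cfsg.Agent.S0076

set_option autoImplicit false

namespace Cfsg.Agent.Lib.Lead

open Subgroup

variable {G : Type*} [Group G]

/-- a `p`-element normalizing a Sylow `p`-subgroup lies in it. -/
theorem pelem_normalizer_mem {p : ℕ} (P : Sylow p G) (x : G)
    (hx : x ∈ normalizer ((P : Subgroup G) : Set G)) (k : ℕ) (hk : x ^ (p ^ k) = 1) : x ∈ P := by
  have hz : IsPGroup p (zpowers x) := by
    rintro ⟨g, hg⟩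
    obtain ⟨j, rfl⟩ := hg
    refine ⟨k, ?_⟩
    ext
    show (x ^ j) ^ (p ^ k) = 1
    rw [← zpow_natCast, ← zpow_mul, mul_comm, zpow_mul, zpow_natCast, hk, one_zpow]
  have h1 : IsPGroup p (zpowers x ⊔ (P : Subgroup G) : Subgroup G) :=
    hz.to_sup_of_normal_right' P.2 (zpowers_le.2 hx)
  have h2 := P.is_maximal' h1 le_sup_right
  have : x ∈ (zpowers x ⊔ (P : Subgroup G) : Subgroup G) := le_sup_left (a := zpowers x) (mem_zpowers x)
  rw [h2] at this
  exact this

theorem klein_mem_cases (P : Subgroup G) (hP : IsKleinFour P) {a b : G} (ha : a ∈ P) (hb : b ∈ P)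
    (ha1 : a ≠ 1) (hb1 : b ≠ 1) (hab : a ≠ b) {x : G} (hx : x ∈ P) :
    x = 1 ∨ x = a ∨ x = b ∨ x = a * b := by
  by_contra hcon
  push Not at hcon
  obtain ⟨h1, h2, h3, h4⟩ := hcon
  apply h4
  have := IsKleinFour.eq_mul_of_ne_all (G := P) (x := ⟨a, ha⟩) (y := ⟨b, hb⟩) (z := ⟨x, hx⟩)
    (by simpa [Subtype.ext_iff] using ha1) (by simpa [Subtype.ext_iff] using hb1)
    (by simpa [Subtype.ext_iff] using hab) (by simpa [Subtype.ext_iff] using h1)
    (by simpa [Subtype.ext_iff] using h2) (by simpa [Subtype.ext_iff] using h3)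
  exact congrArg Subtype.val this

theorem klein_comm (P : Subgroup G) (hP : IsKleinFour P) {a b : G} (ha : a ∈ P) (hb : b ∈ P) :
    a * b = b * a := by
  have := (IsKleinFour.isMulCommutative (G := P)).is_comm.comm ⟨a, ha⟩ ⟨b, hb⟩
  exact congrArg Subtype.val this

theorem klein_sq (P : Subgroup G) (hP : IsKleinFour P) {a : G} (ha : a ∈ P) : a * a = 1 := by
  have := IsKleinFour.mul_self (G := P) ⟨a, ha⟩
  exact congrArg Subtype.val this

/-- fusion in a Klein four Sylow 2-subgroup: two conjugate involutions force the third. -/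
theorem klein_fusion [Finite G] (P : Sylow 2 G) (hP : IsKleinFour (P : Subgroup G)) {a b : G}
    (ha : a ∈ P) (hb : b ∈ P) (ha1 : a ≠ 1) (hb1 : b ≠ 1) (hab : a ≠ b) (hc : IsConj a b) :
    IsConj b (a * b) := by
  obtain ⟨g, hg⟩ := isConj_iff.1 hc
  have hinv : ∀ z ∈ P, ∀ x ∈ P, (fun y => x * y * x⁻¹) '' ({z} : Set G) = {z} := by
    intro z hz x hx
    rw [Set.image_singleton, klein_comm _ hP hx hz, mul_assoc, mul_inv_cancel, mul_one]
  obtain ⟨n, hn, hn'⟩ := Cfsg.Agent.S0076.result P {a} {b} (by simpa using ha) (by simpa using hb)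
    (hinv a ha) (hinv b hb) g (by rw [Set.image_singleton, hg])
  rw [Set.image_singleton, Set.singleton_eq_singleton_iff] at hn'
  -- n a n⁻¹ = b
  obtain ⟨k, m, hm, hkm⟩ := Nat.exists_eq_two_pow_mul_odd (orderOf_pos n).ne'
  have hnm : n ^ m ∈ P := by
    apply pelem_normalizer_mem P _ (pow_mem hn m) k
    rw [← pow_mul, mul_comm, ← hkm, pow_orderOf_eq_one]
  set σ := MulAut.conj n with hσ
  have hσa : σ a = b := by simp [hσ, hn']
  have hσm : (σ ^ m) a = a := by
    rw [hσ, ← map_pow, MulAut.conj_apply, klein_comm _ hP hnm ha, mul_assoc, mul_inv_cancel, mul_one]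
  have hσbP : σ b ∈ P := by
    have := (mem_normalizer_iff (H := (P : Subgroup G))).mp hn b
    have h2 : n * b * n⁻¹ ∈ (P : Subgroup G) := this.mp hb
    rw [hσ, MulAut.conj_apply]
    exact h2
  have hσb : IsConj b (σ b) := isConj_iff.2 ⟨n, by simp [hσ]⟩
  rcases klein_mem_cases _ hP ha hb ha1 hb1 hab hσbP with h | h | h | h
  · exfalso
    apply hb1
    have : σ b = σ 1 := by rw [h, map_one]
    exact σ.injective this
  · exfalso
    have h2 : ∀ j : ℕ, (σ ^ (2 * j)) a = a := by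
      intro j
      induction j with
      | zero => simp
      | succ j ih =>
        have : σ ^ (2 * (j + 1)) = σ ^ (2 * j) * σ * σ := by
          rw [mul_add, pow_add, mul_one, pow_two, mul_assoc]
        rw [this, MulAut.mul_apply, MulAut.mul_apply, hσa, h, ih]
    obtain ⟨j, rfl⟩ := hm
    rw [pow_succ, MulAut.mul_apply, hσa] at hσm
    have h3 : (σ ^ (2 * j)) a = (σ ^ (2 * j)) b := by rw [h2 j, hσm]
    exact hab ((σ ^ (2 * j)).injective h3)
  · exfalso
    apply hab
    have : σ a = σ b := by rw [hσa, h]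
    exact σ.injective this
  · rw [← h]; exact hσb

theorem klein_exists (P : Subgroup G) (hP : IsKleinFour P) :
    ∃ a b : G, a ∈ P ∧ b ∈ P ∧ a ≠ 1 ∧ b ≠ 1 ∧ a ≠ b := by
  have hfin : Finite P := Nat.finite_of_card_ne_zero (by rw [hP.card_four]; norm_num)
  have hnt : Nontrivial P := by
    rw [← Finite.one_lt_card_iff_nontrivial, hP.card_four]; norm_num
  obtain ⟨a, ha⟩ := exists_ne (1 : P)
  have h : ¬ ∀ b : P, b ∈ zpowers a := fun h => IsKleinFour.not_isCyclic (G := P) ⟨a, h⟩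
  push Not at h
  obtain ⟨b, hb⟩ := h
  refine ⟨a, b, a.2, b.2, ?_, ?_, ?_⟩
  · intro h; exact ha (Subtype.ext h)
  · intro h
    apply hb
    have : b = 1 := Subtype.ext h
    rw [this]; exact one_mem _
  · intro h
    apply hb
    have : a = b := Subtype.ext h
    rw [← this]; exact mem_zpowers a

theorem klein_invol_set [Finite G] (P : Sylow 2 G) (hP : IsKleinFour (P : Subgroup G)) {a b : G}
    (ha : a ∈ P) (hb : b ∈ P) (ha1 : a ≠ 1) (hb1 : b ≠ 1) (hab : a ≠ b) :
    {C : ConjClasses G | ∃ t : G, orderOf t = 2 ∧ ConjClasses.mk t = C} =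
      {ConjClasses.mk a, ConjClasses.mk b, ConjClasses.mk (a * b)} := by
  have hab1 : a * b ≠ 1 := by
    intro h
    apply hab
    have h2 := klein_sq _ hP hb
    exact mul_right_cancel (h.trans h2.symm)
  ext C
  simp only [Set.mem_ofPred_eq, Set.mem_insert_iff, Set.mem_singleton_iff]
  constructor
  · rintro ⟨t, ht, rfl⟩
    have hz : IsPGroup 2 (zpowers t) := by
      rintro ⟨g, hg⟩
      obtain ⟨j, rfl⟩ := hg
      refine ⟨1, ?_⟩
      ext
      show (t ^ j) ^ (2 ^ 1) = 1
      rw [pow_one, ← zpow_natCast, ← zpow_mul, mul_comm, zpow_mul, zpow_natCast, sq,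
        mul_self_of_orderOf_two ht, one_zpow]
    obtain ⟨Q, hQ⟩ := hz.exists_le_sylow
    obtain ⟨g, rfl⟩ := MulAction.exists_smul_eq G P Q
    have htQ : t ∈ (g • P : Sylow 2 G) := hQ (mem_zpowers t)
    rw [mem_sylow_smul_iff] at htQ
    have hconj : ConjClasses.mk t = ConjClasses.mk (g⁻¹ * t * g) := by
      rw [ConjClasses.mk_eq_mk_iff_isConj, isConj_iff]
      exact ⟨g⁻¹, by simp⟩
    rw [hconj]
    rcases klein_mem_cases _ hP ha hb ha1 hb1 hab htQ with h | h | h | h
    · exfalso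
      apply ne_one_of_orderOf_two ht
      have : t = g * (g⁻¹ * t * g) * g⁻¹ := by group
      rw [this, h]; group
    · left; rw [h]
    · right; left; rw [h]
    · right; right; rw [h]
  · rintro (rfl | rfl | rfl)
    · exact ⟨a, orderOf_two_of (klein_sq _ hP ha) ha1, rfl⟩
    · exact ⟨b, orderOf_two_of (klein_sq _ hP hb) hb1, rfl⟩
    · exact ⟨a * b, orderOf_two_of (klein_sq _ hP (mul_mem ha hb)) hab1, rfl⟩

theorem klein_card_one [Finite G] (P : Sylow 2 G) (hP : IsKleinFour (P : Subgroup G)) {a b : G}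
    (ha : a ∈ P) (hb : b ∈ P) (ha1 : a ≠ 1) (hb1 : b ≠ 1) (hab : a ≠ b)
    (h : IsConj a b ∨ IsConj a (a * b) ∨ IsConj b (a * b)) :
    Nat.card {C : ConjClasses G // ∃ t : G, orderOf t = 2 ∧ ConjClasses.mk t = C} = 1 := by
  have hab1 : a * b ≠ 1 := by
    intro h
    apply hab
    have h2 := klein_sq _ hP hb
    exact mul_right_cancel (h.trans h2.symm)
  have haab : a ≠ a * b := by
    intro h
    apply hb1
    have : a * 1 = a * b := by rw [mul_one]; exact h
    exact (mul_left_cancel this).symm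
  have hbab : b ≠ a * b := by
    intro h
    apply ha1
    have : 1 * b = a * b := by rw [one_mul]; exact h
    exact (mul_right_cancel this).symm
  have hall : IsConj a b ∧ IsConj b (a * b) := by
    rcases h with h | h | h
    · exact ⟨h, klein_fusion P hP ha hb ha1 hb1 hab h⟩
    · have h2 := klein_fusion P hP ha (mul_mem ha hb) ha1 hab1 haab h
      rw [← mul_assoc, klein_sq _ hP ha, one_mul] at h2
      exact ⟨h.trans h2, h2.symm⟩
    · have h2 := klein_fusion P hP hb (mul_mem ha hb) hb1 hab1 hbab h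
      rw [klein_comm _ hP ha hb, ← mul_assoc, klein_sq _ hP hb, one_mul] at h2
      rw [klein_comm _ hP ha hb] at h
      refine ⟨(h.trans h2).symm, ?_⟩
      rw [klein_comm _ hP ha hb]; exact h
  have e := klein_invol_set P hP ha hb ha1 hb1 hab
  have e1 : ConjClasses.mk a = ConjClasses.mk b := ConjClasses.mk_eq_mk_iff_isConj.2 hall.1
  have e2 : ConjClasses.mk b = ConjClasses.mk (a * b) := ConjClasses.mk_eq_mk_iff_isConj.2 hall.2
  rw [← e2, e1] at e
  simp only [Set.mem_singleton_iff, Set.insert_eq_of_mem] at e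
  show Nat.card ↥{C : ConjClasses G | ∃ t : G, orderOf t = 2 ∧ ConjClasses.mk t = C} = 1
  rw [e]
  simp

theorem klein_card_three [Finite G] (P : Sylow 2 G) (hP : IsKleinFour (P : Subgroup G)) {a b : G}
    (ha : a ∈ P) (hb : b ∈ P) (ha1 : a ≠ 1) (hb1 : b ≠ 1) (hab : a ≠ b)
    (h : ¬ (IsConj a b ∨ IsConj a (a * b) ∨ IsConj b (a * b))) :
    Nat.card {C : ConjClasses G // ∃ t : G, orderOf t = 2 ∧ ConjClasses.mk t = C} = 3 := by
  push Not at h
  have e := klein_invol_set P hP ha hb ha1 hb1 hab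
  show Nat.card ↥{C : ConjClasses G | ∃ t : G, orderOf t = 2 ∧ ConjClasses.mk t = C} = 3
  rw [e, Nat.card_coe_set_eq]
  apply Set.ncard_eq_three.2
  refine ⟨_, _, _, ?_, ?_, ?_, rfl⟩
  · rw [Ne, ConjClasses.mk_eq_mk_iff_isConj]; exact h.1
  · rw [Ne, ConjClasses.mk_eq_mk_iff_isConj]; exact h.2.1
  · rw [Ne, ConjClasses.mk_eq_mk_iff_isConj]; exact h.2.2

end Cfsg.Agent.Lib.Lead
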