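import Mathlib

set_option autoImplicit false
set_option linter.style.haveILetI false

namespace Cfsg.Agent.Lib.Lead.AutOrb

open Polynomial

theorem exists_linearEquiv_apply {K V W : Type*} [Field K] [Finite K] [AddCommGroup V] [Module K V]
    [AddCommGroup W] [Module K W] [Finite V] [Finite W] (hc : Nat.card V = Nat.card W)
    {v : V} {w : W} (hv : v ≠ 0) (hw : w ≠ 0) : ∃ e : V ≃ₗ[K] W, e v = w := by
  have hfr : Module.finrank K V = Module.finrank K W := by
    have h1 := Module.natCard_eq_pow_finrank (K := K) (V := V)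
    have h2 := Module.natCard_eq_pow_finrank (K := K) (V := W)
    rw [h1, h2] at hc
    exact Nat.pow_right_injective (Finite.one_lt_card (α := K)) hc
  let e₀ := LinearEquiv.ofFinrankEq V W hfr
  have hv' : e₀ v ≠ 0 := by simpa using hv
  let f : (K ∙ e₀ v) ≃ₗ[K] (K ∙ w) :=
    (LinearEquiv.toSpanNonzeroSingleton K W (e₀ v) hv').symm ≪≫ₗ
      LinearEquiv.toSpanNonzeroSingleton K W w hw
  obtain ⟨g, hg⟩ := Submodule.exists_linearEquiv_restrict_eq f
  refine ⟨e₀ ≪≫ₗ g, ?_⟩
  have h := hg ⟨e₀ v, Submodule.mem_span_singleton_self _⟩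
  have h2 : f ⟨e₀ v, Submodule.mem_span_singleton_self _⟩ = ⟨w, Submodule.mem_span_singleton_self _⟩ := by
    simp only [f, LinearEquiv.trans_apply]
    rw [← LinearEquiv.toSpanNonzeroSingleton_one K W (e₀ v) hv', LinearEquiv.symm_apply_apply,
      LinearEquiv.toSpanNonzeroSingleton_one]
  rw [h2] at h
  simpa using h.symm

theorem exists_intertwiner {p : ℕ} [Fact p.Prime] {V : Type*} [AddCommGroup V] [Module (ZMod p) V]
    [Finite V] (Φ : (ZMod p)[X]) (hΦ : Irreducible Φ) (A B : Module.End (ZMod p) V)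
    (hA : aeval A Φ = 0) (hB : aeval B Φ = 0) {v w : V} (hv : v ≠ 0) (hw : w ≠ 0) :
    ∃ e : V ≃+ V, (∀ u, e (A u) = B (e u)) ∧ e v = w := by
  haveI : Fact (Irreducible Φ) := ⟨hΦ⟩
  haveI : Module.Finite (ZMod p) (AdjoinRoot Φ) := (AdjoinRoot.powerBasis hΦ.ne_zero).finite
  haveI : Finite (AdjoinRoot Φ) := Module.finite_of_finite (ZMod p)
  have tA : Module.IsTorsionBy (ZMod p)[X] (Module.AEval' A) Φ := by
    intro x
    obtain ⟨m, rfl⟩ := (Module.AEval'.of A).surjective x
    rw [← Module.AEval.of_aeval_smul, hA]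
    simp
  have tB : Module.IsTorsionBy (ZMod p)[X] (Module.AEval' B) Φ := by
    intro x
    obtain ⟨m, rfl⟩ := (Module.AEval'.of B).surjective x
    rw [← Module.AEval.of_aeval_smul, hB]
    simp
  letI mA : Module (AdjoinRoot Φ) (Module.AEval' A) := tA.module
  letI mB : Module (AdjoinRoot Φ) (Module.AEval' B) := tB.module
  haveI : Finite (Module.AEval' A) := Finite.of_equiv V (Module.AEval'.of A).toEquiv
  haveI : Finite (Module.AEval' B) := Finite.of_equiv V (Module.AEval'.of B).toEquiv
  have hc : Nat.card (Module.AEval' A) = Nat.card (Module.AEval' B) :=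
    Nat.card_congr ((Module.AEval'.of A).symm.toEquiv.trans (Module.AEval'.of B).toEquiv)
  obtain ⟨e, he⟩ := exists_linearEquiv_apply (K := AdjoinRoot Φ) hc
    (v := Module.AEval'.of A v) (w := Module.AEval'.of B w) (by simpa using hv) (by simpa using hw)
  refine ⟨((Module.AEval'.of A).toAddEquiv.trans e.toAddEquiv).trans (Module.AEval'.of B).symm.toAddEquiv, ?_, ?_⟩
  · intro u
    have h1 : Module.AEval'.of A (A u) = (AdjoinRoot.root Φ) • Module.AEval'.of A u := by
      rw [← Module.AEval'.X_smul_of]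
      exact (tA.mk_smul X _).symm
    have h2 : ∀ y, (AdjoinRoot.root Φ) • Module.AEval'.of B y = Module.AEval'.of B (B y) := by
      intro y
      rw [← Module.AEval'.X_smul_of]
      exact (tB.mk_smul X _)
    change (Module.AEval'.of B).symm (e (Module.AEval'.of A (A u))) =
      B ((Module.AEval'.of B).symm (e (Module.AEval'.of A u)))
    rw [h1, map_smul]
    obtain ⟨y, hy⟩ := (Module.AEval'.of B).surjective (e (Module.AEval'.of A u))
    rw [← hy, h2]
    simp
  · change (Module.AEval'.of B).symm (e (Module.AEval'.of A v)) = w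
    rw [he]
    simp

end Cfsg.Agent.Lib.Lead.AutOrb
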