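import Mathlib

set_option autoImplicit false
set_option linter.style.haveILetI false

namespace Cfsg.Agent.Lib.Lead.AutOrb

theorem exists_aut_of_complement {G : Type*} [Group G] [Finite G] (D : Subgroup G) [D.Normal]
    (g g' : G)
    (hc : D.IsComplement' (Subgroup.zpowers g)) (hc' : D.IsComplement' (Subgroup.zpowers g'))
    (ho : orderOf g = orderOf g') (e : D ≃* D)
    (he : ∀ d : D, ∀ hd : g * d * g⁻¹ ∈ D, (e ⟨g * d * g⁻¹, hd⟩ : G) = g' * e d * g'⁻¹) :
    ∃ σ : MulAut G, σ g = g' ∧ ∀ d : D, σ d = e d := by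
  classical
  let γ : Subgroup.zpowers g := ⟨g, Subgroup.mem_zpowers g⟩
  let γ' : Subgroup.zpowers g' := ⟨g', Subgroup.mem_zpowers g'⟩
  have hγ : ∀ x : Subgroup.zpowers g, x ∈ Subgroup.zpowers γ := by
    rintro ⟨y, n, rfl⟩
    exact ⟨n, by ext; simp [γ]⟩
  have hγ' : ∀ x : Subgroup.zpowers g', x ∈ Subgroup.zpowers γ' := by
    rintro ⟨y, n, rfl⟩
    exact ⟨n, by ext; simp [γ']⟩
  have hoo : orderOf γ = orderOf γ' := by
    rw [Subgroup.orderOf_mk, Subgroup.orderOf_mk, ho]
  let fg : Subgroup.zpowers g ≃* Subgroup.zpowers g' := mulEquivOfOrderOfEq hγ hγ' hoo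
  have hfg : fg γ = γ' := mulEquivOfOrderOfEq_apply_gen hγ hγ' hoo
  have key : ∀ n : ℕ, ∀ d : D, ∀ hd : g ^ n * d * (g ^ n)⁻¹ ∈ D,
      (e ⟨g ^ n * d * (g ^ n)⁻¹, hd⟩ : G) = g' ^ n * e d * (g' ^ n)⁻¹ := by
    intro n
    induction n with
    | zero => intro d hd; simp
    | succ n ih =>
      intro d hd
      have h1 : g ^ n * d * (g ^ n)⁻¹ ∈ D := ‹D.Normal›.conj_mem _ d.2 _
      have h2 := he ⟨g ^ n * d * (g ^ n)⁻¹, h1⟩ (‹D.Normal›.conj_mem _ h1 _)
      rw [ih d h1] at h2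
      have h3 : (⟨g ^ (n + 1) * d * (g ^ (n + 1))⁻¹, hd⟩ : D) =
          ⟨g * (⟨g ^ n * d * (g ^ n)⁻¹, h1⟩ : D) * g⁻¹, ‹D.Normal›.conj_mem _ h1 _⟩ := by
        ext
        simp only [pow_succ']
        group
      rw [h3, h2]
      simp only [pow_succ']
      group
  have hcomp : ∀ k : Subgroup.zpowers g,
      ((D.normalizerMonoidHom.comp (Subgroup.inclusion (D.normalizer_eq_top ▸ le_top))) k).trans e =
      e.trans ((D.normalizerMonoidHom.comp (Subgroup.inclusion (D.normalizer_eq_top ▸ le_top))) (fg k)) := by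
    intro k
    obtain ⟨n, hn⟩ := (mem_powers_iff_mem_zpowers).2 k.2
    have hk : k = γ ^ n := by ext; simp [γ, ← hn]
    have hfk : fg k = γ' ^ n := by rw [hk, map_pow, hfg]
    ext d
    have := key n d (‹D.Normal›.conj_mem _ d.2 _)
    simp only [MulEquiv.trans_apply, MonoidHom.comp_apply]
    rw [hfk, hk]
    have h5 : (D.normalizerMonoidHom ((Subgroup.inclusion (D.normalizer_eq_top ▸ le_top)) (γ ^ n))) d
        = ⟨g ^ n * d * (g ^ n)⁻¹, ‹D.Normal›.conj_mem _ d.2 _⟩ := by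
      ext
      simp [γ, Subgroup.normalizerMonoidHom_apply_apply_coe]
    rw [h5, this]
    simp [γ', Subgroup.normalizerMonoidHom_apply_apply_coe]
  let σ : MulAut G := (SemidirectProduct.mulEquivSubgroup hc).symm.trans
    ((SemidirectProduct.congr e fg hcomp).trans (SemidirectProduct.mulEquivSubgroup hc'))
  refine ⟨σ, ?_, ?_⟩
  · have h1 : (SemidirectProduct.mulEquivSubgroup hc).symm g = SemidirectProduct.inr γ := by
      rw [MulEquiv.symm_apply_eq]
      simp [γ]
    change (SemidirectProduct.mulEquivSubgroup hc') ((SemidirectProduct.congr e fg hcomp)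
      ((SemidirectProduct.mulEquivSubgroup hc).symm g)) = g'
    rw [h1]
    simp [hfg, γ']
  · intro d
    have h1 : (SemidirectProduct.mulEquivSubgroup hc).symm d = SemidirectProduct.inl d := by
      rw [MulEquiv.symm_apply_eq]
      simp
    change (SemidirectProduct.mulEquivSubgroup hc') ((SemidirectProduct.congr e fg hcomp)
      ((SemidirectProduct.mulEquivSubgroup hc).symm d)) = e d
    rw [h1]
    simp

end Cfsg.Agent.Lib.Lead.AutOrb
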