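import Mathlib
import Cfsg.Agent.Lib.Lead.AutOrb1

set_option autoImplicit false
set_option linter.style.haveILetI false

namespace Cfsg.Agent.Lib.Lead.AutOrb

open Polynomial

theorem aeval_cyclotomic_eq_zero {p q : ℕ} [Fact p.Prime] [Fact q.Prime] {V : Type*}
    [AddCommGroup V] [Module (ZMod p) V] (A : Module.End (ZMod p) V) (hA : A ^ q = 1)
    (hA1 : ∀ u, A u = u → u = 0) : aeval A (cyclotomic q (ZMod p)) = 0 := by
  have h := cyclotomic_prime_mul_X_sub_one (ZMod p) q
  have h2 : aeval A ((X - 1) * cyclotomic q (ZMod p)) = 0 := by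
    rw [mul_comm, h]
    simp [hA]
  rw [map_mul] at h2
  ext u
  have h3 : (aeval A (X - 1 : (ZMod p)[X]) * aeval A (cyclotomic q (ZMod p))) u = 0 := by
    rw [h2]; rfl
  simp only [map_sub, aeval_X, map_one, Module.End.mul_apply, LinearMap.sub_apply,
    Module.End.one_apply] at h3
  exact hA1 _ (sub_eq_zero.1 h3)

/-- the linear map attached to an automorphism of a group of exponent `p` -/
noncomputable def linOf {p : ℕ} [Fact p.Prime] {D : Type*} [CommGroup D]
    [Module (ZMod p) (Additive D)] (α : D ≃* D) : Module.End (ZMod p) (Additive D) :=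
  (MonoidHom.toAdditive α.toMonoidHom).toZModLinearMap p

theorem linOf_apply {p : ℕ} [Fact p.Prime] {D : Type*} [CommGroup D]
    [Module (ZMod p) (Additive D)] (α : D ≃* D) (u : Additive D) :
    linOf (p := p) α u = Additive.ofMul (α u.toMul) := rfl

theorem linOf_pow_apply {p : ℕ} [Fact p.Prime] {D : Type*} [CommGroup D]
    [Module (ZMod p) (Additive D)] (α : D ≃* D) (n : ℕ) (u : Additive D) :
    (linOf (p := p) α ^ n) u = Additive.ofMul (α^[n] u.toMul) := by
  induction n generalizing u with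
  | zero => simp
  | succ n ih =>
    rw [pow_succ, Module.End.mul_apply, ih, linOf_apply, Function.iterate_succ_apply]
    rfl

theorem exists_mulEquiv_intertwiner_aux {p q : ℕ} [Fact p.Prime] [Fact q.Prime] {D : Type*}
    [CommGroup D] [Finite D] [Module (ZMod p) (Additive D)]
    (hirr : Irreducible (cyclotomic q (ZMod p)))
    (α β : D ≃* D) (hα : ∀ a, α^[q] a = a) (hα1 : ∀ a, α a = a → a = 1)
    (hβ : ∀ a, β^[q] a = a) (hβ1 : ∀ a, β a = a → a = 1)
    {v w : D} (hv : v ≠ 1) (hw : w ≠ 1) :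
    ∃ e : D ≃* D, (∀ u, e (α u) = β (e u)) ∧ e v = w := by
  have hA : aeval (linOf (p := p) α) (cyclotomic q (ZMod p)) = 0 := by
    apply aeval_cyclotomic_eq_zero
    · ext u
      rw [linOf_pow_apply, hα]; rfl
    · intro u hu
      rw [linOf_apply] at hu
      exact congrArg Additive.ofMul (hα1 u.toMul (congrArg Additive.toMul hu))
  have hB : aeval (linOf (p := p) β) (cyclotomic q (ZMod p)) = 0 := by
    apply aeval_cyclotomic_eq_zero
    · ext u
      rw [linOf_pow_apply, hβ]; rfl
    · intro u hu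
      rw [linOf_apply] at hu
      exact congrArg Additive.ofMul (hβ1 u.toMul (congrArg Additive.toMul hu))
  obtain ⟨e, he, hev⟩ := exists_intertwiner (cyclotomic q (ZMod p)) hirr _ _ hA hB
    (v := Additive.ofMul v) (w := Additive.ofMul w)
    (fun h => hv (congrArg Additive.toMul h)) (fun h => hw (congrArg Additive.toMul h))
  refine ⟨MulEquiv.toAdditive.symm e, ?_, ?_⟩
  · intro u
    exact congrArg Additive.toMul (he (Additive.ofMul u))
  · exact congrArg Additive.toMul hev

theorem exists_mulEquiv_intertwiner {p q : ℕ} [Fact p.Prime] [Fact q.Prime] {D : Type*}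
    [CommGroup D] [Finite D] (hexp : ∀ a : D, a ^ p = 1)
    (hirr : Irreducible (cyclotomic q (ZMod p)))
    (α β : D ≃* D) (hα : ∀ a, α^[q] a = a) (hα1 : ∀ a, α a = a → a = 1)
    (hβ : ∀ a, β^[q] a = a) (hβ1 : ∀ a, β a = a → a = 1)
    {v w : D} (hv : v ≠ 1) (hw : w ≠ 1) :
    ∃ e : D ≃* D, (∀ u, e (α u) = β (e u)) ∧ e v = w := by
  have hx : ∀ x : Additive D, p • x = 0 := fun x => congrArg Additive.ofMul (hexp x.toMul)
  letI : Module (ZMod p) (Additive D) := AddCommGroup.zmodModule hx
  exact exists_mulEquiv_intertwiner_aux hirr α β hα hα1 hβ hβ1 hv hw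

end Cfsg.Agent.Lib.Lead.AutOrb
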