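import Mathlib

set_option autoImplicit false
set_option linter.style.haveILetI false

namespace Cfsg.Agent.Lib.Lead.AutOrb

theorem mk_eq_iff {G : Type*} [Group G] (x y : G) :
    (Quotient.mk'' x : MulAction.orbitRel.Quotient (MulAut G) G) = Quotient.mk'' y ↔
      ∃ σ : MulAut G, σ y = x := by
  rw [Quotient.eq'']
  change x ∈ MulAction.orbit (MulAut G) y ↔ _
  rw [MulAction.mem_orbit_iff]
  rfl

theorem card_orbits_eq_three_iff {G : Type*} [Group G] [Finite G] :
    Nat.card (MulAction.orbitRel.Quotient (MulAut G) G) = 3 ↔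
    ∃ a b c : G, (¬ ∃ σ : MulAut G, σ b = a) ∧ (¬ ∃ σ : MulAut G, σ c = a) ∧
      (¬ ∃ σ : MulAut G, σ c = b) ∧
      ∀ x : G, (∃ σ : MulAut G, σ a = x) ∨ (∃ σ : MulAut G, σ b = x) ∨ (∃ σ : MulAut G, σ c = x) := by
  classical
  haveI : Finite (MulAction.orbitRel.Quotient (MulAut G) G) := Quotient.finite _
  haveI := Fintype.ofFinite (MulAction.orbitRel.Quotient (MulAut G) G)
  rw [Nat.card_eq_fintype_card, ← Finset.card_univ, Finset.card_eq_three]
  constructor
  · rintro ⟨x, y, z, hxy, hxz, hyz, hu⟩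
    induction x using Quotient.inductionOn' with | _ a => ?_
    induction y using Quotient.inductionOn' with | _ b => ?_
    induction z using Quotient.inductionOn' with | _ c => ?_
    refine ⟨a, b, c, fun h => hxy ((mk_eq_iff a b).2 h), fun h => hxz ((mk_eq_iff a c).2 h),
      fun h => hyz ((mk_eq_iff b c).2 h), fun t => ?_⟩
    have ht : (Quotient.mk'' t : MulAction.orbitRel.Quotient (MulAut G) G) ∈
        (Finset.univ : Finset _) := Finset.mem_univ _
    rw [hu] at ht
    simp only [Finset.mem_insert, Finset.mem_singleton] at ht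
    rcases ht with h | h | h
    · exact Or.inl ((mk_eq_iff t a).1 h)
    · exact Or.inr (Or.inl ((mk_eq_iff t b).1 h))
    · exact Or.inr (Or.inr ((mk_eq_iff t c).1 h))
  · rintro ⟨a, b, c, hab, hac, hbc, hall⟩
    refine ⟨Quotient.mk'' a, Quotient.mk'' b, Quotient.mk'' c,
      fun h => hab ((mk_eq_iff a b).1 h), fun h => hac ((mk_eq_iff a c).1 h),
      fun h => hbc ((mk_eq_iff b c).1 h), ?_⟩
    ext t
    induction t using Quotient.inductionOn' with | _ t => ?_
    simp only [Finset.mem_univ, Finset.mem_insert, Finset.mem_singleton, true_iff]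
    rcases hall t with h | h | h
    · exact Or.inl ((mk_eq_iff t a).2 h)
    · exact Or.inr (Or.inl ((mk_eq_iff t b).2 h))
    · exact Or.inr (Or.inr ((mk_eq_iff t c).2 h))

end Cfsg.Agent.Lib.Lead.AutOrb
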