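import Mathlib
import Cfsg.Agent.Lib.Lead.AutOrb2
import Cfsg.Agent.Lib.Lead.AutOrb3
import Cfsg.Agent.Lib.Lead.AutOrb4

set_option autoImplicit false
set_option linter.style.haveILetI false

namespace Cfsg.Agent.Lib.Lead.AutOrb

open Polynomial

theorem irreducible_cyclotomic_of_orderOf {p q : ℕ} [Fact p.Prime] [Fact q.Prime] (hpq : p ≠ q)
    (hord : orderOf (p : ZMod q) = q - 1) : Irreducible (cyclotomic q (ZMod p)) := by
  have hp : p.Prime := Fact.out
  have hq : q.Prime := Fact.out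
  have hpn : ¬ p ∣ q := fun h => hpq ((Nat.prime_dvd_prime_iff_eq hp hq).1 h)
  apply ZMod.irreducible_of_dvd_cyclotomic_of_natDegree hpn dvd_rfl
  rw [natDegree_cyclotomic, Nat.totient_prime hq, ← hord, ← orderOf_units, ZMod.coe_unitOfCoprime]

theorem conjNormal_iterate {G : Type*} [Group G] (D : Subgroup G) [D.Normal] (g : G) (n : ℕ)
    (d : D) : (((MulAut.conjNormal g : MulAut D))^[n] d : G) = g ^ n * d * (g ^ n)⁻¹ := by
  induction n with
  | zero => simp
  | succ n ih =>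
    rw [Function.iterate_succ_apply', MulAut.conjNormal_apply, ih, pow_succ']
    group

section
variable {G : Type*} [Group G] [Finite G] {p q n : ℕ} [Fact p.Prime] [Fact q.Prime]

theorem mem_of_pow_mem (hpq : p ≠ q) (D : Subgroup G) [D.Normal] (hidx : D.index = q)
    (g : G) (hg : g ^ p ∈ D) : g ∈ D := by
  have hp : p.Prime := Fact.out
  have hq : q.Prime := Fact.out
  have h1 : g ^ q ∈ D := hidx ▸ D.pow_index_mem g
  rw [← QuotientGroup.eq_one_iff] at hg h1 ⊢
  rw [QuotientGroup.mk_pow] at hg h1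
  have h2 := orderOf_dvd_of_pow_eq_one hg
  have h3 := orderOf_dvd_of_pow_eq_one h1
  have h4 : orderOf (g : G ⧸ D) ∣ 1 := by
    have := Nat.dvd_gcd h2 h3
    rwa [(Nat.coprime_primes hp hq).2 hpq] at this
  exact orderOf_eq_one_iff.1 (Nat.dvd_one.1 h4)

theorem orderOf_of_not_mem (hpq : p ≠ q) (D : Subgroup G) [D.Normal] (hidx : D.index = q)
    (hexp : ∀ a ∈ D, a ^ p = 1)
    (hfpf : ∀ x y : G, orderOf x = q → orderOf y = p → x * y * x⁻¹ ≠ y)
    (g : G) (hg : g ∉ D) : orderOf g = q := by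
  have h1 : g ^ q ∈ D := hidx ▸ D.pow_index_mem g
  have hg1 : g ≠ 1 := fun h => hg (h ▸ D.one_mem)
  by_cases hy : g ^ q = 1
  · exact orderOf_eq_prime hy hg1
  · exfalso
    have hoy : orderOf (g ^ q) = p := orderOf_eq_prime (hexp _ h1) hy
    have hx1 : g ^ p ≠ 1 := fun h => hg (mem_of_pow_mem hpq D hidx g (h ▸ D.one_mem))
    have hxq : (g ^ p) ^ q = 1 := by
      rw [← pow_mul, mul_comm, pow_mul]; exact hexp _ h1
    have hox : orderOf (g ^ p) = q := orderOf_eq_prime hxq hx1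
    apply hfpf _ _ hox hoy
    rw [← pow_add, add_comm, pow_add, mul_inv_cancel_right]

theorem exists_aut (hpq : p ≠ q) (hcard : Nat.card G = p ^ n * q)
    (D : Subgroup G) [D.Normal] (hDcard : Nat.card D = p ^ n)
    (hcomm : ∀ a ∈ D, ∀ b ∈ D, a * b = b * a) (hexp : ∀ a ∈ D, a ^ p = 1)
    (hord : orderOf (p : ZMod q) = q - 1)
    (hfpf : ∀ x y : G, orderOf x = q → orderOf y = p → x * y * x⁻¹ ≠ y)
    (g g' : G) (hg : orderOf g = q) (hg' : orderOf g' = q) (v w : G) (hv : v ∈ D) (hw : w ∈ D)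
    (hv1 : v ≠ 1) (hw1 : w ≠ 1) : ∃ σ : MulAut G, σ g = g' ∧ σ v = w := by
  have hp : p.Prime := Fact.out
  have hq : q.Prime := Fact.out
  have hcop : Nat.Coprime (p ^ n) q := Nat.Coprime.pow_left n ((Nat.coprime_primes hp hq).2 hpq)
  have hc : ∀ g : G, orderOf g = q → D.IsComplement' (Subgroup.zpowers g) := by
    intro g hg
    apply Subgroup.isComplement'_of_coprime
    · rw [Nat.card_zpowers, hg, hDcard, hcard]
    · rw [Nat.card_zpowers, hg, hDcard]; exact hcop
  letI : CommGroup D :=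
    { (inferInstance : Group D) with mul_comm := fun a b => Subtype.ext (hcomm a a.2 b b.2) }
  have hit : ∀ g : G, orderOf g = q → ∀ a : D, ((MulAut.conjNormal g : MulAut D))^[q] a = a := by
    intro g hg a
    apply Subtype.ext
    rw [conjNormal_iterate, ← hg, pow_orderOf_eq_one]
    simp
  have hfix : ∀ g : G, orderOf g = q → ∀ a : D, (MulAut.conjNormal g : MulAut D) a = a → a = 1 := by
    intro g hg a ha
    by_contra hne
    have hne' : (a : G) ≠ 1 := fun h => hne (Subtype.ext h)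
    apply hfpf g a hg (orderOf_eq_prime (hexp a a.2) hne')
    have := congrArg Subtype.val ha
    rwa [MulAut.conjNormal_apply] at this
  obtain ⟨e, he, hev⟩ := exists_mulEquiv_intertwiner (p := p) (q := q) (D := D)
    (fun a => Subtype.ext (hexp a a.2)) (irreducible_cyclotomic_of_orderOf hpq hord)
    (MulAut.conjNormal g) (MulAut.conjNormal g') (hit g hg) (hfix g hg) (hit g' hg') (hfix g' hg')
    (v := ⟨v, hv⟩) (w := ⟨w, hw⟩) (fun h => hv1 (congrArg Subtype.val h))
    (fun h => hw1 (congrArg Subtype.val h))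
  obtain ⟨σ, hσ1, hσ2⟩ := exists_aut_of_complement D g g' (hc g hg) (hc g' hg') (hg.trans hg'.symm) e
    (by
      intro d hd
      have h1 := he d
      have h2 : (MulAut.conjNormal g : MulAut D) d = ⟨g * d * g⁻¹, hd⟩ :=
        Subtype.ext (MulAut.conjNormal_apply g d)
      rw [h2] at h1
      rw [h1, MulAut.conjNormal_apply])
  refine ⟨σ, hσ1, ?_⟩
  have := hσ2 ⟨v, hv⟩
  rw [hev] at this
  exact this

theorem bwd (hpq : p ≠ q) (hn : 1 ≤ n) (hcard : Nat.card G = p ^ n * q)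
    (D : Subgroup G) [D.Normal] (hDcard : Nat.card D = p ^ n)
    (hcomm : ∀ a ∈ D, ∀ b ∈ D, a * b = b * a) (hexp : ∀ a ∈ D, a ^ p = 1)
    (hord : orderOf (p : ZMod q) = q - 1)
    (hfpf : ∀ x y : G, orderOf x = q → orderOf y = p → x * y * x⁻¹ ≠ y) :
    Nat.card (MulAction.orbitRel.Quotient (MulAut G) G) = 3 := by
  have hp : p.Prime := Fact.out
  have hq : q.Prime := Fact.out
  have hidx : D.index = q := by
    have h := D.card_mul_index
    rw [hDcard, hcard] at h
    exact Nat.eq_of_mul_eq_mul_left (pow_pos hp.pos n) h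
  obtain ⟨b, hb⟩ := exists_prime_orderOf_dvd_card' (G := G) q (hcard ▸ Dvd.intro_left _ rfl)
  have hDnt : D ≠ ⊥ := by
    intro h
    rw [h, Subgroup.card_bot] at hDcard
    exact absurd hDcard.symm (Nat.one_lt_pow (by omega) hp.one_lt).ne'
  obtain ⟨a, haD, ha1⟩ : ∃ a : G, a ∈ D ∧ a ≠ 1 := by
    obtain ⟨a, h⟩ := D.ne_bot_iff_exists_ne_one.1 hDnt
    exact ⟨(a : G), a.2, fun h' => h (Subtype.ext h')⟩
  have hoa : orderOf a = p := orderOf_eq_prime (hexp a haD) ha1
  rw [card_orbits_eq_three_iff]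
  refine ⟨1, a, b, ?_, ?_, ?_, ?_⟩
  · rintro ⟨σ, hσ⟩
    exact ha1 ((map_eq_one_iff σ σ.injective).1 hσ)
  · rintro ⟨σ, hσ⟩
    have : b = 1 := (map_eq_one_iff σ σ.injective).1 hσ
    rw [this, orderOf_one] at hb
    exact hq.one_lt.ne hb
  · rintro ⟨σ, hσ⟩
    have := MulEquiv.orderOf_eq σ b
    rw [hσ, hoa, hb] at this
    exact hpq this
  · intro x
    by_cases hx1 : x = 1
    · exact Or.inl ⟨1, by simp [hx1]⟩
    by_cases hxD : x ∈ D
    · obtain ⟨σ, -, hσ⟩ := exists_aut hpq hcard D hDcard hcomm hexp hord hfpf b b hb hb a x haD hxD ha1 hx1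
      exact Or.inr (Or.inl ⟨σ, hσ⟩)
    · have hox := orderOf_of_not_mem hpq D hidx hexp hfpf x hxD
      obtain ⟨σ, hσ, -⟩ := exists_aut hpq hcard D hDcard hcomm hexp hord hfpf b x hb hox a a haD haD ha1 ha1
      exact Or.inr (Or.inr ⟨σ, hσ⟩)

end

end Cfsg.Agent.Lib.Lead.AutOrb
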