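import Mathlib

set_option autoImplicit false
set_option linter.style.haveILetI false

namespace Cfsg.Agent.Lib.Lead.AutOrb

open Polynomial

section
variable {p : ℕ} [Fact p.Prime] {V : Type*} [AddCommGroup V] [Module (ZMod p) V]

theorem semiconj_aeval (E A B : Module.End (ZMod p) V) (h : E * A = B * E) (g : (ZMod p)[X]) :
    E * aeval A g = aeval B g * E := by
  induction g using Polynomial.induction_on' with
  | add f g hf hg => rw [map_add, map_add, mul_add, add_mul, hf, hg]
  | monomial n c =>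
    rw [aeval_monomial, aeval_monomial]
    have h1 : E * A ^ n = B ^ n * E := by
      have : SemiconjBy E A B := h
      exact this.pow_right n
    rw [← mul_assoc, ← Algebra.commutes, mul_assoc, h1, mul_assoc]

/-- the cyclic submodule generated by `v` -/
def cyc (A : Module.End (ZMod p) V) (v : V) : Set V := {u | ∃ g : (ZMod p)[X], u = aeval A g v}

theorem self_mem_cyc (A : Module.End (ZMod p) V) (v : V) : v ∈ cyc A v := ⟨1, by simp⟩

theorem cyc_subset (A : Module.End (ZMod p) V) {u w : V} (h : u ∈ cyc A w) : cyc A u ⊆ cyc A w := by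
  obtain ⟨g, rfl⟩ := h
  rintro _ ⟨f, rfl⟩
  exact ⟨f * g, by rw [map_mul]; rfl⟩

theorem sub_mem_cyc (A : Module.End (ZMod p) V) {u u' w : V} (h : u ∈ cyc A w) (h' : u' ∈ cyc A w) :
    u - u' ∈ cyc A w := by
  obtain ⟨g, rfl⟩ := h
  obtain ⟨g', rfl⟩ := h'
  exact ⟨g - g', by rw [map_sub]; rfl⟩

theorem exists_irreducible_kernel (A : Module.End (ZMod p) V) (g : (ZMod p)[X]) :
    g ≠ 0 → (∃ v : V, v ≠ 0 ∧ aeval A g v = 0) →
    ∃ f : (ZMod p)[X], Irreducible f ∧ f ∣ g ∧ ∃ v : V, v ≠ 0 ∧ aeval A f v = 0 := by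
  induction g using WfDvdMonoid.induction_on_irreducible with
  | zero => intro h; exact absurd rfl h
  | unit u hu =>
    rintro - ⟨v, hv, h⟩
    exfalso
    have h1 : IsUnit (aeval A u) := hu.map (aeval A)
    have h2 := ((Module.End.isUnit_iff _).1 h1).injective
    exact hv (h2 (by rw [h, map_zero]))
  | mul a i ha hi ih =>
    rintro - ⟨v, hv, h⟩
    rw [map_mul] at h
    by_cases h0 : aeval A a v = 0
    · obtain ⟨f, hf, hfa, hk⟩ := ih ha ⟨v, hv, h0⟩
      exact ⟨f, hf, hfa.mul_left i, hk⟩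
    · exact ⟨i, hi, Dvd.intro _ rfl, aeval A a v, h0, h⟩

end

theorem natDegree_ge_of_roots {p q : ℕ} [Fact p.Prime] [Fact q.Prime] (hpq : p ≠ q)
    (f : (ZMod p)[X]) (hf : Irreducible f) (hfΦ : f ∣ cyclotomic q (ZMod p))
    (hk : ∀ k : ℕ, 1 ≤ k → k < q → f ∣ f.comp (X ^ k)) : q - 1 ≤ f.natDegree := by
  classical
  have hp : p.Prime := Fact.out
  have hq : q.Prime := Fact.out
  haveI : Fact (Irreducible f) := ⟨hf⟩
  have hζ : IsPrimitiveRoot (AdjoinRoot.root f) q := by
    have : NeZero (q : AdjoinRoot f) := by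
      suffices NeZero (q : ZMod p) by
        simpa using! NeZero.of_injective (algebraMap (ZMod p) (AdjoinRoot f)).injective
      refine ⟨fun h0 => ?_⟩
      rw [ZMod.natCast_eq_zero_iff] at h0
      exact hpq ((Nat.prime_dvd_prime_iff_eq hp hq).1 h0)
    simpa [← isRoot_cyclotomic_iff] using! (AdjoinRoot.isRoot_root f).dvd
      (by simpa using! map_dvd (algebraMap (ZMod p) (AdjoinRoot f)) hfΦ)
  have hroot : ∀ k : ℕ, 1 ≤ k → k < q → (f.map (AdjoinRoot.of f)).IsRoot (AdjoinRoot.root f ^ k) := by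
    intro k h1 h2
    obtain ⟨c, hc⟩ := hk k h1 h2
    have h3 : aeval (AdjoinRoot.root f) (f.comp (X ^ k)) = 0 := by
      rw [hc, map_mul, AdjoinRoot.aeval_eq, AdjoinRoot.mk_self, zero_mul]
    rw [aeval_comp] at h3
    simp only [map_pow, aeval_X] at h3
    rw [IsRoot.def, eval_map]
    exact h3
  have hne : f.map (AdjoinRoot.of f) ≠ 0 := (Polynomial.map_ne_zero_iff (AdjoinRoot.of f).injective).2 hf.ne_zero
  let s : Finset (AdjoinRoot f) := (Finset.Ico 1 q).image (fun k => AdjoinRoot.root f ^ k)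
  have hs : s.card = q - 1 := by
    rw [Finset.card_image_of_injOn, Nat.card_Ico]
    intro i hi j hj hij
    simp only [Finset.coe_Ico, Set.mem_Ico] at hi hj
    exact hζ.pow_inj hi.2 hj.2 hij
  have hsub : s ⊆ (f.map (AdjoinRoot.of f)).roots.toFinset := by
    intro x hx
    obtain ⟨k, hk', rfl⟩ := Finset.mem_image.1 hx
    rw [Finset.mem_Ico] at hk'
    rw [Multiset.mem_toFinset, mem_roots hne]
    exact hroot k hk'.1 hk'.2
  calc q - 1 = s.card := hs.symm
    _ ≤ (f.map (AdjoinRoot.of f)).roots.toFinset.card := Finset.card_le_card hsub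
    _ ≤ Multiset.card (f.map (AdjoinRoot.of f)).roots := Multiset.toFinset_card_le _
    _ ≤ (f.map (AdjoinRoot.of f)).natDegree := card_roots' _
    _ = f.natDegree := natDegree_map _

theorem orderOf_eq_of_transitive {p q : ℕ} [Fact p.Prime] [Fact q.Prime] (hpq : p ≠ q)
    {V : Type*} [AddCommGroup V] [Module (ZMod p) V] [Finite V] [Nontrivial V]
    (A : Module.End (ZMod p) V) (hA : aeval A (cyclotomic q (ZMod p)) = 0)
    (H1 : ∀ v w : V, v ≠ 0 → w ≠ 0 →
      ∃ (e : V ≃+ V) (k : ℕ), (∀ u, e (A u) = (A ^ k) (e u)) ∧ e v = w)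
    (H2 : ∀ k : ℕ, 1 ≤ k → k < q → ∃ e : V ≃+ V, ∀ u, e (A u) = (A ^ k) (e u)) :
    orderOf (p : ZMod q) = q - 1 := by
  have hp : p.Prime := Fact.out
  have hq : q.Prime := Fact.out
  have hsc : ∀ (e : V ≃+ V) (k : ℕ), (∀ u, e (A u) = (A ^ k) (e u)) → ∀ (g : (ZMod p)[X]) (u : V),
      e (aeval A g u) = aeval (A ^ k) g (e u) := by
    intro e k he g u
    have h := semiconj_aeval (e.toAddMonoidHom.toZModLinearMap p) A (A ^ k)
      (by ext u; exact he u) g
    exact congrArg (fun T : Module.End (ZMod p) V => T u) h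
  have hle : ∀ v w : V, v ≠ 0 → w ≠ 0 → (cyc A v).ncard ≤ (cyc A w).ncard := by
    intro v w hv hw
    obtain ⟨e, k, he, hev⟩ := H1 v w hv hw
    have hsub : e '' cyc A v ⊆ cyc A w := by
      rintro _ ⟨_, ⟨g, rfl⟩, rfl⟩
      refine ⟨g.comp (X ^ k), ?_⟩
      rw [hsc e k he, hev, aeval_comp]
      simp
    rw [← Set.ncard_image_of_injective _ e.injective]
    exact Set.ncard_le_ncard hsub (Set.toFinite _)
  have heq : ∀ u w : V, u ≠ 0 → w ≠ 0 → u ∈ cyc A w → cyc A u = cyc A w := by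
    intro u w hu hw h
    exact Set.eq_of_subset_of_ncard_le (cyc_subset A h) (hle w u hw hu) (Set.toFinite _)
  obtain ⟨v0, hv0⟩ := exists_ne (0 : V)
  obtain ⟨f, hf, hfΦ, v, hv, hfv⟩ := exists_irreducible_kernel A (cyclotomic q (ZMod p))
    (cyclotomic_ne_zero q _) ⟨v0, hv0, by rw [hA]; rfl⟩
  have hf0 : aeval A f = 0 := by
    ext w
    by_contra hu
    change aeval A f w ≠ 0 at hu
    have hw : w ≠ 0 := by
      rintro rfl
      exact hu (map_zero _)
    have hz : aeval A f (v + w) = aeval A f w := by rw [map_add, hfv, zero_add]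
    have hz0 : v + w ≠ 0 := by
      intro h
      rw [h, map_zero] at hz
      exact hu hz.symm
    have e1 : cyc A (aeval A f w) = cyc A w := heq _ _ hu hw ⟨f, rfl⟩
    have e2 : cyc A (aeval A f w) = cyc A (v + w) := heq _ _ hu hz0 ⟨f, hz.symm⟩
    have h3 : v + w ∈ cyc A w := by
      rw [← e1, e2]; exact self_mem_cyc A _
    have h4 : v ∈ cyc A w := by
      have := sub_mem_cyc A h3 (self_mem_cyc A w)
      rwa [add_sub_cancel_right] at this
    have e3 : cyc A v = cyc A w := heq _ _ hv hw h4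
    have h5 : w ∈ cyc A v := by rw [e3]; exact self_mem_cyc A w
    obtain ⟨g, hg⟩ := h5
    apply hu
    rw [hg]
    have : (aeval A f * aeval A g) v = 0 := by
      rw [← map_mul, mul_comm, map_mul]
      change aeval A g (aeval A f v) = 0
      rw [hfv, map_zero]
    exact this
  have hdvd : ∀ g : (ZMod p)[X], aeval A g = 0 → f ∣ g := by
    intro g hg
    by_contra hnd
    obtain ⟨a, b, hab⟩ := (hf.coprime_iff_not_dvd).2 hnd
    have h1 := congrArg (aeval A) hab
    rw [map_add, map_mul, map_mul, hf0, hg, mul_zero, mul_zero, add_zero, map_one] at h1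
    exact hv0 (by
      have := congrArg (fun T : Module.End (ZMod p) V => T v0) h1
      exact this.symm)
  have hk : ∀ k : ℕ, 1 ≤ k → k < q → f ∣ f.comp (X ^ k) := by
    intro k h1 h2
    obtain ⟨e, he⟩ := H2 k h1 h2
    apply hdvd
    rw [aeval_comp]
    simp only [map_pow, aeval_X]
    ext u
    obtain ⟨u', rfl⟩ := e.surjective u
    rw [← hsc e k he, hf0]
    simp
  have hge := natDegree_ge_of_roots hpq f hf hfΦ hk
  have hle' : f.natDegree ≤ q - 1 := by
    have := natDegree_le_of_dvd hfΦ (cyclotomic_ne_zero q _)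
    rwa [natDegree_cyclotomic, Nat.totient_prime hq] at this
  have hcop : p.Coprime q := (Nat.coprime_primes hp hq).2 hpq
  have hdeg := natDegree_of_dvd_cyclotomic_of_irreducible (K := ZMod p) (p := p) (f := 1) (n := q)
    (by simp [ZMod.card]) hcop hfΦ hf
  rw [← orderOf_units, ZMod.coe_unitOfCoprime] at hdeg
  simp only [pow_one] at hdeg
  omega

end Cfsg.Agent.Lib.Lead.AutOrb
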