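import Mathlib
import Cfsg.Agent.S0058

set_option autoImplicit false
set_option linter.style.haveILetI false

namespace Cfsg.Agent.Lib.Lead.AutOrb

theorem index_eq {G : Type*} [Group G] [Finite G] {p q n : ℕ} [Fact p.Prime] [Fact q.Prime]
    (hpq : p ≠ q)
    (hord : ∀ x : G, x ≠ 1 → orderOf x = p ∨ orderOf x = q)
    (hfpf : ∀ x y : G, orderOf x = q → orderOf y = p → x * y * x⁻¹ ≠ y)
    (A : Subgroup G) [A.Normal] (hAexp : ∀ a ∈ A, a ^ p = 1) (hpA : ∀ y, orderOf y = p → y ∈ A)
    (hAnt : A ≠ ⊥) (hAcard : Nat.card A = p ^ n) (xq : G) (hxq : orderOf xq = q) :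
    A.index = q := by
  classical
  have hp : p.Prime := Fact.out
  have hq : q.Prime := Fact.out
  have hpg : IsPGroup q (G ⧸ A) := by
    intro x
    induction x using QuotientGroup.induction_on with | _ g => ?_
    refine ⟨1, ?_⟩
    rw [pow_one, ← QuotientGroup.mk_pow, QuotientGroup.eq_one_iff]
    by_cases hg : g = 1
    · rw [hg, one_pow]; exact A.one_mem
    rcases hord g hg with h | h
    · exact A.pow_mem (hpA g h) q
    · rw [← h, pow_orderOf_eq_one]; exact A.one_mem
  obtain ⟨b, hb⟩ := IsPGroup.iff_card.1 hpg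
  have hidx : A.index = q ^ b := hb
  have hxqA : xq ∉ A := by
    intro h
    have h1 := orderOf_dvd_of_pow_eq_one (hAexp xq h)
    rw [hxq] at h1
    exact hpq ((Nat.prime_dvd_prime_iff_eq hq hp).1 h1).symm
  have hb0 : b ≠ 0 := by
    rintro rfl
    rw [pow_zero, Subgroup.index_eq_one] at hidx
    exact hxqA (hidx ▸ Subgroup.mem_top xq)
  by_cases hb1 : b = 1
  · rw [hidx, hb1, pow_one]
  exfalso
  have hb2 : 2 ≤ b := by omega
  have hcard : Nat.card G = p ^ n * q ^ b := by
    rw [← A.card_mul_index, hAcard, hidx]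
  obtain ⟨Qs⟩ : Nonempty (Sylow q G) := inferInstance
  have hQcard : Nat.card Qs = q ^ b := by
    rw [Sylow.card_eq_multiplicity, hcard, Nat.factorization_mul (pow_ne_zero _ hp.ne_zero)
      (pow_ne_zero _ hq.ne_zero), hp.factorization_pow, hq.factorization_pow]
    simp [hpq]
  have hQord : ∀ x ∈ (Qs : Subgroup G), x ≠ 1 → orderOf x = q := by
    intro x hx hx1
    rcases hord x hx1 with h | h
    · exfalso
      obtain ⟨k, hk⟩ := Qs.isPGroup' ⟨x, hx⟩
      have hk' : x ^ (q ^ k) = 1 := by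
        have := congrArg Subtype.val hk
        simpa using this
      have h1 := orderOf_dvd_of_pow_eq_one hk'
      rw [h] at h1
      exact hpq ((Nat.prime_dvd_prime_iff_eq hp hq).1 (hp.dvd_of_dvd_pow h1))
    · exact h
  haveI : Nontrivial Qs := by
    rw [← Finite.one_lt_card_iff_nontrivial, hQcard]
    exact Nat.one_lt_pow hb0 hq.one_lt
  haveI := IsPGroup.center_nontrivial Qs.isPGroup'
  obtain ⟨z, hz⟩ := exists_ne (1 : Subgroup.center Qs)
  have hz0 : ((z : Qs) : G) ≠ 1 := by
    intro h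
    apply hz
    ext
    exact h
  have hoz : orderOf ((z : Qs) : G) = q := hQord _ (z : Qs).2 hz0
  obtain ⟨y, hyQ, hyz⟩ : ∃ y ∈ (Qs : Subgroup G), y ∉ Subgroup.zpowers ((z : Qs) : G) := by
    by_contra hcon
    push Not at hcon
    have h1 : (Qs : Subgroup G) ≤ Subgroup.zpowers ((z : Qs) : G) := hcon
    have h2 := Subgroup.card_le_of_le h1
    rw [hQcard, Nat.card_zpowers, hoz] at h2
    have h3 : q ^ 2 ≤ q ^ b := Nat.pow_le_pow_right hq.pos hb2
    nlinarith [hq.one_lt]
  have hzy : ((z : Qs) : G) * y = y * ((z : Qs) : G) := by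
    have := Subgroup.mem_center_iff.1 z.2 ⟨y, hyQ⟩
    exact (congrArg Subtype.val this).symm
  let E : Subgroup G := Subgroup.closure {((z : Qs) : G), y}
  have hEQ : E ≤ (Qs : Subgroup G) := by
    rw [Subgroup.closure_le]
    intro x hx
    rcases hx with rfl | rfl
    · exact (z : Qs).2
    · exact hyQ
  haveI : IsMulCommutative E := Subgroup.isMulCommutative_closure (by
    intro a ha b hb
    rcases ha with rfl | rfl <;> rcases hb with rfl | rfl
    · rfl
    · exact hzy
    · exact hzy.symm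
    · rfl)
  have hncyc : ¬ IsCyclic E := by
    intro hc
    obtain ⟨c, hcgen⟩ := hc.exists_generator
    have h1 : orderOf c = Nat.card E := orderOf_eq_card_of_forall_mem_zpowers hcgen
    have h2 : orderOf (c : G) ≤ q := by
      by_cases hc1 : (c : G) = 1
      · rw [hc1, orderOf_one]; exact hq.one_lt.le
      · exact (hQord _ (hEQ c.2) hc1).le
    rw [Subgroup.orderOf_coe, h1] at h2
    have h3 : Subgroup.zpowers ((z : Qs) : G) ≤ E := by
      rw [Subgroup.zpowers_le]
      exact Subgroup.subset_closure (Set.mem_insert _ _)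
    have h4 : Subgroup.zpowers ((z : Qs) : G) = E :=
      Subgroup.eq_of_le_of_card_ge h3 (by rw [Nat.card_zpowers, hoz]; exact h2)
    apply hyz
    rw [h4]
    exact Subgroup.subset_closure (Set.mem_insert_of_mem _ rfl)
  have hcop : (Nat.card E).Coprime (Nat.card A) := by
    rw [hAcard]
    apply Nat.Coprime.coprime_dvd_left (Subgroup.card_dvd_of_le hEQ)
    rw [hQcard]
    exact Nat.Coprime.pow _ _ ((Nat.coprime_primes hq hp).2 hpq.symm)
  have hS := Cfsg.Agent.S0058.result E A hncyc (by rw [A.normalizer_eq_top]; exact le_top) hcop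
  apply hAnt
  rw [← hS]
  simp only [iSup_eq_bot]
  rintro a ⟨haE, ha1⟩
  rw [eq_bot_iff]
  rintro d ⟨hdA, hdc⟩
  rw [Subgroup.mem_bot]
  by_contra hd1
  have hod : orderOf d = p := orderOf_eq_prime (hAexp d hdA) hd1
  apply hfpf a d (hQord a (hEQ haE) ha1) hod
  have := Subgroup.mem_centralizer_singleton_iff.1 hdc
  rw [← this, mul_inv_cancel_right]

end Cfsg.Agent.Lib.Lead.AutOrb
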