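import Mathlib
import Cfsg.Agent.Lib.Lead.AutOrb3
import Cfsg.Agent.Lib.Lead.AutOrb5
import Cfsg.Agent.Lib.Lead.AutOrb6
import Cfsg.Agent.Lib.Lead.AutOrb7

set_option autoImplicit false
set_option linter.style.haveILetI false

namespace Cfsg.Agent.Lib.Lead.AutOrb

open Polynomial

theorem prim_aux {p q : ℕ} [Fact p.Prime] [Fact q.Prime] (hpq : p ≠ q) {D : Type*}
    [CommGroup D] [Finite D] [Nontrivial D] [Module (ZMod p) (Additive D)]
    (α : D ≃* D) (hα : ∀ a, α^[q] a = a) (hα1 : ∀ a, α a = a → a = 1)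
    (H1 : ∀ v w : D, v ≠ 1 → w ≠ 1 →
      ∃ (e : D ≃* D) (k : ℕ), (∀ u, e (α u) = α^[k] (e u)) ∧ e v = w)
    (H2 : ∀ k : ℕ, 1 ≤ k → k < q → ∃ e : D ≃* D, ∀ u, e (α u) = α^[k] (e u)) :
    orderOf (p : ZMod q) = q - 1 := by
  have hA : aeval (linOf (p := p) α) (cyclotomic q (ZMod p)) = 0 := by
    apply aeval_cyclotomic_eq_zero
    · ext u
      rw [linOf_pow_apply, hα]; rfl
    · intro u hu
      rw [linOf_apply] at hu
      exact congrArg Additive.ofMul (hα1 u.toMul (congrArg Additive.toMul hu))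
  apply orderOf_eq_of_transitive hpq (linOf (p := p) α) hA
  · intro v w hv hw
    obtain ⟨e, k, he, hev⟩ := H1 v.toMul w.toMul (fun h => hv (congrArg Additive.ofMul h))
      (fun h => hw (congrArg Additive.ofMul h))
    refine ⟨MulEquiv.toAdditive e, k, ?_, ?_⟩
    · intro u
      rw [linOf_pow_apply, linOf_apply]
      exact congrArg Additive.ofMul (he u.toMul)
    · exact congrArg Additive.ofMul hev
  · intro k h1 h2
    obtain ⟨e, he⟩ := H2 k h1 h2
    refine ⟨MulEquiv.toAdditive e, ?_⟩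
    intro u
    rw [linOf_pow_apply, linOf_apply]
    exact congrArg Additive.ofMul (he u.toMul)

theorem prim {p q : ℕ} [Fact p.Prime] [Fact q.Prime] (hpq : p ≠ q) {D : Type*}
    [CommGroup D] [Finite D] [Nontrivial D] (hexp : ∀ a : D, a ^ p = 1)
    (α : D ≃* D) (hα : ∀ a, α^[q] a = a) (hα1 : ∀ a, α a = a → a = 1)
    (H1 : ∀ v w : D, v ≠ 1 → w ≠ 1 →
      ∃ (e : D ≃* D) (k : ℕ), (∀ u, e (α u) = α^[k] (e u)) ∧ e v = w)
    (H2 : ∀ k : ℕ, 1 ≤ k → k < q → ∃ e : D ≃* D, ∀ u, e (α u) = α^[k] (e u)) :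
    orderOf (p : ZMod q) = q - 1 := by
  have hx : ∀ x : Additive D, p • x = 0 := fun x => congrArg Additive.ofMul (hexp x.toMul)
  letI : Module (ZMod p) (Additive D) := AddCommGroup.zmodModule hx
  exact prim_aux hpq α hα hα1 H1 H2

/-- restriction of an automorphism to an invariant subgroup -/
def restrictAut {G : Type*} [Group G] (A : Subgroup G)
    (hAinv : ∀ σ : MulAut G, ∀ a ∈ A, σ a ∈ A) (σ : MulAut G) : A ≃* A where
  toFun a := ⟨σ a, hAinv σ a a.2⟩
  invFun a := ⟨σ⁻¹ a, hAinv σ⁻¹ a a.2⟩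
  left_inv a := by ext; simp
  right_inv a := by ext; simp
  map_mul' a b := by ext; simp

theorem restrictAut_coe {G : Type*} [Group G] (A : Subgroup G)
    (hAinv : ∀ σ : MulAut G, ∀ a ∈ A, σ a ∈ A) (σ : MulAut G) (a : A) :
    (restrictAut A hAinv σ a : G) = σ a := rfl

theorem fwd_aux {G : Type*} [Group G] [Finite G] {p q : ℕ} [Fact p.Prime] [Fact q.Prime]
    (hpq : p ≠ q)
    (hord : ∀ x : G, x ≠ 1 → orderOf x = p ∨ orderOf x = q)
    (htp : ∀ x y : G, orderOf x = p → orderOf y = p → ∃ σ : MulAut G, σ x = y)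
    (htq : ∀ x y : G, orderOf x = q → orderOf y = q → ∃ σ : MulAut G, σ x = y)
    (xq : G) (hxq : orderOf xq = q)
    (A : Subgroup G) (hAinv : ∀ σ : MulAut G, ∀ a ∈ A, σ a ∈ A)
    (hAcomm : ∀ a ∈ A, ∀ b ∈ A, a * b = b * a)
    (xp : G) (hxpA : xp ∈ A) (hxp : orderOf xp = p) :
    ∃ n : ℕ, 1 ≤ n ∧ Nat.card G = p ^ n * q ∧
      (∀ P : Sylow p G, (P : Subgroup G) = A) ∧ A.Normal ∧ (∀ a ∈ A, a ^ p = 1) ∧
      orderOf (p : ZMod q) = q - 1 ∧
      ∀ x y : G, orderOf x = q → orderOf y = p → x * y * x⁻¹ ≠ y := by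
  have hp : p.Prime := Fact.out
  have hq : q.Prime := Fact.out
  have hcopr : Nat.Coprime q p := (Nat.coprime_primes hq hp).2 hpq.symm
  have hfpf : ∀ x y : G, orderOf x = q → orderOf y = p → x * y * x⁻¹ ≠ y := by
    intro x y hx hy h
    have hc : Commute x y := by
      have : x * y = y * x := by
        conv_rhs => rw [← h]
        group
      exact this
    have ho := hc.orderOf_mul_eq_mul_orderOf_of_coprime (by rw [hx, hy]; exact hcopr)
    rw [hx, hy] at ho
    have hne : x * y ≠ 1 := by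
      intro h1
      rw [h1, orderOf_one] at ho
      have := Nat.eq_one_of_mul_eq_one_right ho.symm
      exact hq.one_lt.ne' this
    rcases hord _ hne with h1 | h1
    · rw [h1] at ho
      have : q = 1 := by
        have h2 : 1 * p = q * p := by rw [one_mul]; exact ho
        exact (Nat.eq_of_mul_eq_mul_right hp.pos h2).symm
      exact hq.one_lt.ne' this
    · rw [h1] at ho
      have : p = 1 := by
        have h2 : q * 1 = q * p := by rw [mul_one]; exact ho
        exact (Nat.eq_of_mul_eq_mul_left hq.pos h2).symm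
      exact hp.one_lt.ne' this
  have hpA : ∀ y, orderOf y = p → y ∈ A := by
    intro y hy
    obtain ⟨σ, hσ⟩ := htp xp y hxp hy
    exact hσ ▸ hAinv σ xp hxpA
  have hqA : ∀ y ∈ A, orderOf y ≠ q := by
    intro y hy ho
    apply hfpf y xp ho hxp
    rw [hAcomm y hy xp hxpA, mul_inv_cancel_right]
  have hAexp : ∀ a ∈ A, a ^ p = 1 := by
    intro a ha
    by_cases ha1 : a = 1
    · rw [ha1, one_pow]
    rcases hord a ha1 with h | h
    · rw [← h, pow_orderOf_eq_one]
    · exact absurd h (hqA a ha)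
  haveI hAn : A.Normal := ⟨fun a ha g => by
    have := hAinv (MulAut.conj g) a ha
    rwa [MulAut.conj_apply] at this⟩
  have hApg : IsPGroup p A := by
    intro a
    refine ⟨1, ?_⟩
    ext
    simpa using hAexp a a.2
  have hSyl : ∀ P : Sylow p G, (P : Subgroup G) = A := by
    intro P
    have hle : (P : Subgroup G) ≤ A := by
      intro x hx
      by_cases hx1 : x = 1
      · rw [hx1]; exact A.one_mem
      rcases hord x hx1 with h | h
      · exact hpA x h
      · exfalso
        obtain ⟨k, hk⟩ := P.isPGroup' ⟨x, hx⟩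
        have hk' : x ^ (p ^ k) = 1 := by
          have := congrArg Subtype.val hk
          simpa using this
        have h1 := orderOf_dvd_of_pow_eq_one hk'
        rw [h] at h1
        exact hpq ((Nat.prime_dvd_prime_iff_eq hq hp).1 (hq.dvd_of_dvd_pow h1)).symm
    exact (P.is_maximal' hApg hle).symm
  obtain ⟨n, hn⟩ := IsPGroup.iff_card.1 hApg
  have hxp1 : xp ≠ 1 := by
    rintro rfl
    rw [orderOf_one] at hxp
    exact hp.one_lt.ne hxp
  have hAnt : A ≠ ⊥ := by
    intro h
    rw [h, Subgroup.mem_bot] at hxpA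
    exact hxp1 hxpA
  have hn1 : 1 ≤ n := by
    rcases Nat.eq_zero_or_pos n with h | h
    · exfalso
      rw [h, pow_zero] at hn
      exact hAnt (Subgroup.card_eq_one.1 hn)
    · exact h
  have hidx : A.index = q := index_eq hpq hord hfpf A hAexp hpA hAnt hn xq hxq
  have hcard : Nat.card G = p ^ n * q := by rw [← A.card_mul_index, hn, hidx]
  refine ⟨n, hn1, hcard, hSyl, hAn, hAexp, ?_, hfpf⟩
  -- primitive root
  letI : CommGroup A :=
    { (inferInstance : Group A) with mul_comm := fun a b => Subtype.ext (hAcomm a a.2 b b.2) }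
  haveI : Nontrivial A := (Subgroup.nontrivial_iff_ne_bot A).2 hAnt
  have hc : A.IsComplement' (Subgroup.zpowers xq) := by
    apply Subgroup.isComplement'_of_coprime
    · rw [Nat.card_zpowers, hxq, hn, hcard]
    · rw [Nat.card_zpowers, hxq, hn]; exact Nat.Coprime.pow_left n hcopr.symm
  have key : ∀ (σ : MulAut G) (d : G) (k : ℕ), d ∈ A → σ xq = d * xq ^ k → ∀ u : A,
      restrictAut A hAinv σ ((MulAut.conjNormal xq : MulAut A) u) =
        ((MulAut.conjNormal xq : MulAut A))^[k] (restrictAut A hAinv σ u) := by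
    intro σ d k hd hσ u
    apply Subtype.ext
    rw [restrictAut_coe, conjNormal_iterate, restrictAut_coe, MulAut.conjNormal_apply, map_mul,
      map_mul, map_inv, hσ]
    have h1 : xq ^ k * σ u * (xq ^ k)⁻¹ ∈ A := hAn.conj_mem _ (hAinv σ u u.2) _
    have h2 := hAcomm d hd _ h1
    calc d * xq ^ k * σ u * (d * xq ^ k)⁻¹ = d * (xq ^ k * σ u * (xq ^ k)⁻¹) * d⁻¹ := by group
      _ = xq ^ k * σ u * (xq ^ k)⁻¹ := by rw [h2, mul_inv_cancel_right]
  apply prim hpq (D := A) (fun a => Subtype.ext (hAexp a a.2)) (MulAut.conjNormal xq)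
  · intro a
    apply Subtype.ext
    rw [conjNormal_iterate, ← hxq, pow_orderOf_eq_one]
    simp
  · intro a ha
    by_contra hne
    have hne' : (a : G) ≠ 1 := fun h => hne (Subtype.ext h)
    apply hfpf xq a hxq (orderOf_eq_prime (hAexp a a.2) hne')
    have := congrArg Subtype.val ha
    rwa [MulAut.conjNormal_apply] at this
  · intro v w hv hw
    have hv' : (v : G) ≠ 1 := fun h => hv (Subtype.ext h)
    have hw' : (w : G) ≠ 1 := fun h => hw (Subtype.ext h)
    obtain ⟨σ, hσ⟩ := htp v w (orderOf_eq_prime (hAexp v v.2) hv') (orderOf_eq_prime (hAexp w w.2) hw')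
    obtain ⟨⟨d, t⟩, hdt⟩ := hc.2 (σ xq)
    obtain ⟨k, hk⟩ := (mem_powers_iff_mem_zpowers).2 t.2
    refine ⟨restrictAut A hAinv σ, k, key σ d k d.2 ?_, Subtype.ext hσ⟩
    rw [← hdt]
    change (d : G) * (t : G) = d * xq ^ k
    rw [← hk]
  · intro k h1 h2
    have hok : orderOf (xq ^ k) = q := by
      have hco : (orderOf xq).Coprime k := by
        rw [hxq]; exact Nat.coprime_of_lt_prime (by omega) h2 hq
      rw [hco.orderOf_pow, hxq]
    obtain ⟨σ, hσ⟩ := htq xq (xq ^ k) hxq hok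
    exact ⟨restrictAut A hAinv σ, key σ 1 k A.one_mem (by rw [hσ, one_mul])⟩

end Cfsg.Agent.Lib.Lead.AutOrb
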