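import Cfsg.Agent.Lib.Helper25.Ramified
import Cfsg.Agent.Lib.Helper25.IndChar
import Cfsg.Agent.Lib.Helper7.CharComplete

set_option autoImplicit false

namespace Cfsg.Agent.Lib.Lead.FullRam

open scoped ComplexConjugate
open Cfsg

universe u

variable {G : Type u} [Group G]

theorem char_comm {χ : G → ℂ} (hχ : IsClassFunction G χ) (a b : G) : χ (a * b) = χ (b * a) := by
  have := hχ (a * b) b
  rw [← this]
  congr 1
  group

/-- class-sum formula. -/
theorem conj_sum [Fintype G] {χ : G → ℂ} (hχ : IsIrrCharacter G χ) (b h : G) :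
    ∑ x : G, χ (x⁻¹ * b * x * h) = (Nat.card G : ℂ) * χ b * χ h / χ 1 := by
  classical
  have hcf := Helper7.isClassFunction_of_isCharacter (Helper7.isCharacter_of_irr hχ)
  let a : G → ℂ := fun g => ∑ x : G, if x⁻¹ * b * x = g then (1 : ℂ) else 0
  have ha : IsClassFunction G a := by
    intro g y
    show (∑ x : G, if x⁻¹ * b * x = y * g * y⁻¹ then (1 : ℂ) else 0)
      = ∑ x : G, if x⁻¹ * b * x = g then (1 : ℂ) else 0
    apply Fintype.sum_equiv (Equiv.mulRight y)
    intro x
    have : (x⁻¹ * b * x = y * g * y⁻¹) ↔ ((x * y)⁻¹ * b * (x * y) = g) := by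
      constructor
      · intro h1
        calc (x * y)⁻¹ * b * (x * y) = y⁻¹ * (x⁻¹ * b * x) * y := by group
          _ = g := by rw [h1]; group
      · intro h1
        calc x⁻¹ * b * x = y * ((x * y)⁻¹ * b * (x * y)) * y⁻¹ := by group
          _ = y * g * y⁻¹ := by rw [h1]
    rw [Equiv.coe_mulRight]
    exact if_congr this rfl rfl
  have key := Helper7.irr_sum_mul hχ a ha h
  have h1 : ∀ F : G → ℂ, ∑ g : G, a g * F g = ∑ x : G, F (x⁻¹ * b * x) := by
    intro F
    simp only [a, Finset.sum_mul]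
    rw [Finset.sum_comm]
    apply Finset.sum_congr rfl
    intro x _
    simp
  rw [h1 (fun g => χ (g * h)), h1 χ] at key
  rw [key]
  have h2 : ∀ x : G, χ (x⁻¹ * b * x) = χ b := by
    intro x
    have := hcf b x⁻¹
    simpa using this
  simp only [h2, Finset.sum_const, Finset.card_univ, nsmul_eq_mul, Nat.card_eq_fintype_card]

theorem conj_sum' [Fintype G] {χ : G → ℂ} (hχ : IsIrrCharacter G χ) (b h : G) :
    ∑ x : G, χ (h * (x * b * x⁻¹)) = (Nat.card G : ℂ) * χ b * χ h / χ 1 := by
  have hcf := Helper7.isClassFunction_of_isCharacter (Helper7.isCharacter_of_irr hχ)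
  rw [← conj_sum hχ b h]
  apply Fintype.sum_equiv (Equiv.inv G)
  intro x
  rw [char_comm hcf]
  simp

/-- coset reduction. -/
theorem sum_coset_reduction [Fintype G] (Z : Subgroup G) [Z.Normal] [Fintype Z] (g : G) (f : G → ℂ)
    (hinv : ∀ x, f (g * x) = f x)
    (hsupp : ∀ x, f x ≠ 0 → (x : G ⧸ Z) ∈ Subgroup.zpowers (g : G ⧸ Z)) :
    ∃ n : ℕ, n ≠ 0 ∧ ∑ x, f x = (n : ℂ) * ∑ z : Z, f z := by
  classical
  haveI : Fintype (G ⧸ Z) := Fintype.ofFinite _
  have hinv' : ∀ x, f (g⁻¹ * x) = f x := by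
    intro x
    rw [← hinv (g⁻¹ * x)]
    simp
  have hnat : ∀ (k : ℕ) x, f (g ^ k * x) = f x := by
    intro k
    induction k with
    | zero => intro x; simp
    | succ k ih => intro x; rw [pow_succ', mul_assoc, hinv, ih]
  have hnat' : ∀ (k : ℕ) x, f ((g⁻¹) ^ k * x) = f x := by
    intro k
    induction k with
    | zero => intro x; simp
    | succ k ih => intro x; rw [pow_succ', mul_assoc, hinv', ih]
  have hz : ∀ (i : ℤ) x, f (g ^ i * x) = f x := by
    intro i x
    cases i with
    | ofNat k => simpa using hnat k x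
    | negSucc k =>
      rw [zpow_negSucc, ← inv_pow]
      exact hnat' _ x
  refine ⟨(Finset.univ.filter (fun q : G ⧸ Z => q ∈ Subgroup.zpowers (g : G ⧸ Z))).card, ?_, ?_⟩
  · apply Finset.card_ne_zero_of_mem (a := (1 : G ⧸ Z))
    simp
  · rw [Helper25.sum_eq_sum_quot_sum Z f]
    have h1 : ∀ q : G ⧸ Z, ∑ z : Z, f (q.out * z)
        = if q ∈ Subgroup.zpowers (g : G ⧸ Z) then ∑ z : Z, f z else 0 := by
      intro q
      split_ifs with hq
      · obtain ⟨i, hi⟩ := Subgroup.mem_zpowers_iff.1 hq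
        have h2 : (g ^ i)⁻¹ * q.out ∈ Z := by
          rw [← QuotientGroup.eq, QuotientGroup.out_eq', ← hi, QuotientGroup.mk_zpow]
        apply Fintype.sum_equiv (Equiv.mulLeft (⟨(g ^ i)⁻¹ * q.out, h2⟩ : Z))
        intro z
        have h3 : q.out * (z : G) = g ^ i * ((g ^ i)⁻¹ * q.out * z) := by group
        rw [h3, hz]
        rfl
      · apply Finset.sum_eq_zero
        intro z _
        by_contra hne
        apply hq
        have := hsupp _ hne
        rwa [QuotientGroup.mk_mul_of_mem _ z.2, QuotientGroup.out_eq'] at this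
    simp only [h1]
    rw [← Finset.sum_filter, Finset.sum_const, nsmul_eq_mul]

end Cfsg.Agent.Lib.Lead.FullRam
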