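import Mathlib

set_option autoImplicit false

namespace Cfsg.Agent.Lib.Lead.NormAux

theorem inf_bot_of_odd_of_two {G : Type*} [Group G] [Finite G] (K T : Subgroup G)
    (hK : Odd (Nat.card K)) (hT : IsPGroup 2 T) : K ⊓ T = ⊥ := by
  apply Disjoint.eq_bot
  apply Subgroup.disjoint_of_coprime_natCard
  have : Fact (Nat.Prime 2) := ⟨Nat.prime_two⟩
  obtain ⟨k, hk⟩ := hT.exists_card_eq
  rw [hk]
  exact Nat.Coprime.pow_right _ (Nat.coprime_two_right.mpr hK)

/-- if `A` normalizes `K`, `K` normalizes `A` and they meet trivially, they commute -/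
theorem le_centralizer_of_norm {G : Type*} [Group G] (K A : Subgroup G)
    (h1 : A ≤ Subgroup.normalizer (K : Set G)) (h2 : K ≤ Subgroup.normalizer (A : Set G))
    (h3 : K ⊓ A = ⊥) : K ≤ Subgroup.centralizer (A : Set G) := by
  intro k hk
  rw [Subgroup.mem_centralizer_iff]
  intro a ha
  have e1 : a * k * a⁻¹ * k⁻¹ ∈ K :=
    K.mul_mem ((Subgroup.mem_normalizer_iff.mp (h1 ha) k).mp hk) (K.inv_mem hk)
  have e2 : a * k * a⁻¹ * k⁻¹ ∈ A := by
    have : a * k * a⁻¹ * k⁻¹ = a * (k * a⁻¹ * k⁻¹) := by group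
    rw [this]
    exact A.mul_mem ha ((Subgroup.mem_normalizer_iff.mp (h2 hk) _).mp (A.inv_mem ha))
  have e3 : a * k * a⁻¹ * k⁻¹ ∈ K ⊓ A := ⟨e1, e2⟩
  rw [h3, Subgroup.mem_bot] at e3
  calc a * k = (a * k * a⁻¹ * k⁻¹) * (k * a) := by group
    _ = k * a := by rw [e3, one_mul]

end Cfsg.Agent.Lib.Lead.NormAux
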