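import Cfsg.Agent.S0907
import Cfsg.Agent.S0910
import Cfsg.Agent.Lib.Helper24.BlockDefect
import Cfsg.Agent.Lib.Helper7.BlockFirst
import Cfsg.Agent.Lib.Helper2.CharInt

set_option autoImplicit false
set_option linter.style.haveILetI false
open Cfsg
open scoped ComplexConjugate

namespace Cfsg.Agent.Lib.Lead.PQR

open Cfsg.Agent.Lib.Helper7 Cfsg.Agent.Lib.Helper24

universe u
variable {G : Type u} [Group G]

/-- In a non-abelian simple group of order `s^a t^b r` there is no element of order divisible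
by `s r`. -/
theorem no_sr_element [Finite G] [IsSimpleGroup G] (hna : ∃ a b : G, a * b ≠ b * a)
    (s t r a b : ℕ) (hs : s.Prime) (ht : t.Prime) (hr : r.Prime)
    (hsr : s ≠ r) (htr : t ≠ r)
    (hcard : Nat.card G = s ^ a * t ^ b * r)
    (g : G) (hgs : s ∣ orderOf g) (hgr : r ∣ orderOf g) : False := by
  classical
  haveI : Fact s.Prime := ⟨hs⟩
  haveI : Fact r.Prime := ⟨hr⟩
  obtain ⟨M, hM⟩ := exists_isPModular hs
  obtain ⟨Mr, hMr⟩ := exists_isPModular hr
  haveI := IsPModular.isPrime hM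
  haveI := Fintype.ofFinite (IrrCharacter G)
  have h0 := Cfsg.Agent.S0907.result s M hM (principalBlock M G) isPBlock_principalBlock 1 g
    (by rw [orderOf_one]; exact hs.one_lt.ne' ∘ Nat.dvd_one.1) hgs
  -- the key character
  have key : ∃ χ ∈ principalBlock M G, χ ≠ oneIrr G ∧ ¬ t ∣ charDegree (χ : G → ℂ) ∧
      (χ : G → ℂ) g ≠ 0 := by
    by_contra hcon
    push Not at hcon
    rw [finsum_mem_eq_finite_toFinset_sum _ (Set.toFinite _)] at h0
    have hmem : oneIrr G ∈ (Set.toFinite (principalBlock M G)).toFinset := by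
      simpa using oneIrr_mem_principalBlock
    rw [← Finset.add_sum_erase _ _ hmem] at h0
    have h1 : ((oneIrr G : IrrCharacter G) : G → ℂ) 1 * conj (((oneIrr G : IrrCharacter G) : G → ℂ) g)
        = 1 := by simp [oneIrr]
    rw [h1] at h0
    let z : IrrCharacter G → ℂ := fun χ =>
      ((charDegree (χ : G → ℂ) / t : ℕ) : ℂ) * conj ((χ : G → ℂ) g)
    have h2 : ∀ χ ∈ ((Set.toFinite (principalBlock M G)).toFinset).erase (oneIrr G),
        (χ : G → ℂ) 1 * conj ((χ : G → ℂ) g) = (t : ℂ) * z χ := by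
      intro χ hχ
      rw [Finset.mem_erase] at hχ
      have hχB : χ ∈ principalBlock M G := by simpa using hχ.2
      by_cases hd : t ∣ charDegree (χ : G → ℂ)
      · obtain ⟨k, hk⟩ := hd
        have : charDegree (χ : G → ℂ) / t = k := by
          rw [hk]; exact Nat.mul_div_cancel_left _ ht.pos
        simp only [z]
        rw [this, ← charDegree_cast (isCharacter_of_irr χ.2), hk]
        push_cast
        ring
      · have := hcon χ hχB hχ.1 hd
        simp [z, this]
    rw [Finset.sum_congr rfl h2, ← Finset.mul_sum] at h0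
    set Z := ∑ χ ∈ ((Set.toFinite (principalBlock M G)).toFinset).erase (oneIrr G), z χ with hZ
    have hZint : IsIntegral ℤ Z := by
      apply IsIntegral.sum
      intro χ _
      apply IsIntegral.mul
      · exact isIntegral_natCast (R := ℤ) (B := ℂ) _
      · rw [← char_inv_eq_conj (isCharacter_of_irr χ.2)]
        exact char_isIntegral (isCharacter_of_irr χ.2) _
    have ht0 : (t : ℂ) ≠ 0 := by exact_mod_cast ht.ne_zero
    have hZq : Z = ((-1 / (t : ℚ) : ℚ) : ℂ) := by
      push_cast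
      field_simp
      linear_combination h0
    obtain ⟨k, hk⟩ := Cfsg.Agent.Lib.Helper2.exists_int_of_isIntegral_of_rat hZint _ hZq
    rw [hk] at h0
    have h3 : (1 : ℤ) + t * k = 0 := by exact_mod_cast h0
    have h4 : (t : ℤ) ∣ 1 := ⟨-k, by linarith⟩
    have h5 : t ∣ 1 := by exact_mod_cast h4
    exact ht.one_lt.ne' (Nat.dvd_one.1 h5)
  obtain ⟨χ, hχB, hχ1, hχt, hχg⟩ := key
  -- `r` does not divide the degree
  have hdvd := charDegree_dvd_card χ
  have hχr : ¬ r ∣ charDegree (χ : G → ℂ) := by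
    intro hrd
    apply hχg
    apply char_eq_zero_of_defect_zero hMr χ _ hgr
    intro hrq
    obtain ⟨m, hm⟩ := hdvd
    have hpos := charDegree_pos χ
    rw [hm, Nat.mul_div_cancel_left _ hpos] at hrq
    have hrr : r * r ∣ Nat.card G := by
      rw [hm]; exact Nat.mul_dvd_mul hrd hrq
    rw [hcard] at hrr
    have h6 : r ∣ s ^ a * t ^ b := by
      have := Nat.dvd_of_mul_dvd_mul_right hr.pos hrr
      exact this
    rcases (Nat.Prime.dvd_mul hr).1 h6 with h | h
    · exact hsr ((Nat.prime_dvd_prime_iff_eq hr hs).1 (hr.dvd_of_dvd_pow h)).symm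
    · exact htr ((Nat.prime_dvd_prime_iff_eq hr ht).1 (hr.dvd_of_dvd_pow h)).symm
  -- so the degree is a power of `s`
  have hpow : ∃ k, charDegree (χ : G → ℂ) = s ^ k := by
    rw [hcard] at hdvd
    have hc1 : Nat.Coprime (charDegree (χ : G → ℂ)) r :=
      (Nat.Coprime.symm ((Nat.Prime.coprime_iff_not_dvd hr).2 hχr))
    have hd1 := hc1.dvd_of_dvd_mul_right hdvd
    have hc2 : Nat.Coprime (charDegree (χ : G → ℂ)) (t ^ b) :=
      Nat.Coprime.pow_right _ (Nat.Coprime.symm ((Nat.Prime.coprime_iff_not_dvd ht).2 hχt))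
    have hd2 := hc2.dvd_of_dvd_mul_right hd1
    obtain ⟨k, _, hk⟩ := (Nat.dvd_prime_pow hs).1 hd2
    exact ⟨k, hk⟩
  obtain ⟨k, hk⟩ := hpow
  have hone := Cfsg.Agent.S0910.result s M hM hna χ hχB k (by
    rw [← charDegree_cast (isCharacter_of_irr χ.2), hk]; push_cast; rfl)
  apply hχ1
  apply Subtype.ext
  exact hone

end Cfsg.Agent.Lib.Lead.PQR
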